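import Cfsg.Agent.CoprimeAction.Action
import Cfsg.Prelude.Def_PLocal

set_option autoImplicit false

namespace CfsgLib.BroadEight

variable {P : Type*} [Group P]

/-- The fixed subgroup of `T` is not cyclic. -/
def Broad (T : MulAut P) : Prop := ¬ ∃ g : P, ∀ x : P, (T x = x ↔ x ∈ Subgroup.zpowers g)

theorem eq_one_of_sq [Finite P] {p : ℕ} [Fact p.Prime] (hp2 : p ≠ 2) (hP : IsPGroup p P) {x : P}
    (h : x * x = 1) : x = 1 := by
  obtain ⟨j, hj⟩ := hP x
  obtain ⟨c, hc⟩ := ((Fact.out : p.Prime).odd_of_ne_two hp2).pow (n := j)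
  rwa [hc, pow_succ, pow_mul, pow_two, h, one_pow, one_mul] at hj

/-- An involution normalising a cyclic p-group fixes or inverts it. -/
theorem sign_of_fixed [Finite P] {p : ℕ} [Fact p.Prime] (hp2 : p ≠ 2) (hP : IsPGroup p P)
    {t : MulAut P} (ht : t * t = 1) {g : P} (hg : t g ∈ Subgroup.zpowers g) :
    t g = g ∨ t g = g⁻¹ := by
  have hp : p.Prime := Fact.out
  obtain ⟨k, hk⟩ := hg
  simp only at hk
  have h2 : g ^ (k * k) = g := by
    rw [zpow_mul, hk, ← map_zpow, hk, ← MulAut.mul_apply, ht, MulAut.one_apply]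
  have h3 : (orderOf g : ℤ) ∣ (k - 1) * (k + 1) := by
    rw [orderOf_dvd_iff_zpow_eq_one, show (k - 1) * (k + 1) = k * k - 1 by ring, zpow_sub, h2,
      zpow_one, mul_inv_cancel]
  obtain ⟨j, hj⟩ := IsPGroup.iff_orderOf.1 hP g
  rw [hj, Nat.cast_pow] at h3
  by_cases hpk : (p : ℤ) ∣ k - 1
  · have hcop : IsCoprime ((p : ℤ) ^ j) (k + 1) := by
      refine IsCoprime.pow_left ((Nat.prime_iff_prime_int.1 hp).coprime_iff_not_dvd.2 fun h => ?_)
      have : (p : ℤ) ∣ 2 := by
        have := dvd_sub h hpk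
        rwa [show k + 1 - (k - 1) = (2 : ℤ) by ring] at this
      exact hp2 ((Nat.prime_dvd_prime_iff_eq hp Nat.prime_two).1 (by exact_mod_cast this))
    have h4 := hcop.dvd_of_dvd_mul_right h3
    left
    rw [← Nat.cast_pow, ← hj, orderOf_dvd_iff_zpow_eq_one, zpow_sub, zpow_one, mul_inv_eq_one] at h4
    rw [← hk, h4]
  · have hcop : IsCoprime ((p : ℤ) ^ j) (k - 1) :=
      IsCoprime.pow_left ((Nat.prime_iff_prime_int.1 hp).coprime_iff_not_dvd.2 hpk)
    have h4 := hcop.dvd_of_dvd_mul_left h3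
    right
    rw [← Nat.cast_pow, ← hj, orderOf_dvd_iff_zpow_eq_one, zpow_add, zpow_one, mul_eq_one_iff_eq_inv] at h4
    rw [← hk, h4]

theorem main [Finite P] {p : ℕ} [Fact p.Prime] (hp2 : p ≠ 2) (hP : IsPGroup p P)
    (I : Subgroup (MulAut P)) (hI : Cfsg.IsElementaryAbelian 2 I) (hI8 : Nat.card I = 8)
    (I₀ : Subgroup (MulAut P)) (hI₀ : I₀ < I) (hdisj : ∀ T ∈ I₀, T ≠ 1 → ¬ Broad T)
    (hprod : ∀ T ∈ I, ∀ T' ∈ I, T ≠ 1 → T' ≠ 1 → Broad T → Broad T' → T * T' ∈ I₀) :
    IsMulCommutative P ∧ (∃ a b c : P, Subgroup.closure {a, b, c} = ⊤) ∧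
      (¬ ∃ a b : P, Subgroup.closure {a, b} = ⊤) ∧
      Nat.card {T : MulAut P // T ∈ I ∧ T ≠ 1 ∧ Broad T} = 3 ∧
      Subgroup.closure {T : MulAut P | T ∈ I ∧ T ≠ 1 ∧ Broad T} = I ∧
      (I₀ : Set (MulAut P)) = {S | ∃ T T' : MulAut P, T ∈ I ∧ T' ∈ I ∧ T ≠ 1 ∧ T' ≠ 1 ∧
        Broad T ∧ Broad T' ∧ S = T * T'} := by
  classical
  have hp : p.Prime := Fact.out
  haveI := Fintype.ofFinite P
  have : Finite (MulAut P) := Finite.of_injective (fun f => (f : P → P)) DFunLike.coe_injective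
  have hIab : ∀ a ∈ I, ∀ b ∈ I, a * b = b * a := fun a ha b hb =>
    congrArg Subtype.val (hI.1.is_comm.comm (⟨a, ha⟩ : I) ⟨b, hb⟩)
  have hIsq : ∀ a ∈ I, a * a = 1 := fun a ha => by
    rw [← pow_two]
    exact hI.2 a ha
  -- a subgroup of index two avoiding the broad elements
  obtain ⟨T₀, hT₀, hT₀n, hTB⟩ : ∃ T₀ ∈ I, T₀ ∉ I₀ ∧
      ((∃ T, T ∈ I ∧ T ≠ 1 ∧ Broad T) → T₀ ≠ 1 ∧ Broad T₀) := by
    by_cases h : ∃ T, T ∈ I ∧ T ≠ 1 ∧ Broad T
    · obtain ⟨T, hT, hT1, hTb⟩ := h
      exact ⟨T, hT, fun hc => hdisj T hc hT1 hTb, fun _ => ⟨hT1, hTb⟩⟩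
    · obtain ⟨T, hT, hTn⟩ := SetLike.exists_of_lt hI₀
      exact ⟨T, hT, hTn, fun h' => absurd h' h⟩
  obtain ⟨H, ⟨hH0, hHI, hHT⟩, hmax⟩ := Set.exists_max_image
    {H : Subgroup (MulAut P) | I₀ ≤ H ∧ H ≤ I ∧ T₀ ∉ H} (fun H => Nat.card H) (Set.toFinite _)
    ⟨I₀, le_rfl, hI₀.le, hT₀n⟩
  have hH4 : Nat.card H = 4 := by
    have hd : Nat.card H ∣ 8 := hI8 ▸ Subgroup.card_dvd_of_le hHI
    have hlt : Nat.card H ≠ 8 := fun h => hHT ((Subgroup.eq_of_le_of_card_ge hHI (by omega)) ▸ hT₀)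
    have hge : 4 ≤ Nat.card H := by
      by_contra! hlt4
      obtain ⟨s, hs, hsH, hsT⟩ : ∃ s ∈ I, s ∉ H ∧ s * T₀ ∉ H := by
        by_contra! hc
        have hinj : Nat.card I ≤ Nat.card (H × Bool) := Nat.card_le_card_of_injective
          (fun s : I => if h : (s : MulAut P) ∈ H then ((⟨s, h⟩ : H), true)
            else ((⟨(s : MulAut P) * T₀, hc s s.2 h⟩ : H), false)) (by
            intro a b hab
            simp only at hab
            split_ifs at hab with ha hb hb <;>
              simp only [Prod.mk.injEq, Subtype.mk.injEq, Bool.true_eq_false, Bool.false_eq_true,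
                and_false, and_true] at hab
            · exact Subtype.ext hab
            · exact Subtype.ext (mul_right_cancel hab))
        rw [Nat.card_prod, hI8, Nat.card_eq_fintype_card (α := Bool), Fintype.card_bool] at hinj
        omega
      let K : Subgroup (MulAut P) :=
        { carrier := {x | x ∈ I ∧ (x ∈ H ∨ x * s ∈ H)}
          one_mem' := ⟨one_mem _, Or.inl (one_mem _)⟩
          mul_mem' := by
            rintro x y ⟨hx, hx'⟩ ⟨hy, hy'⟩
            refine ⟨mul_mem hx hy, ?_⟩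
            rcases hx' with hx' | hx' <;> rcases hy' with hy' | hy'
            · exact Or.inl (mul_mem hx' hy')
            · right; rw [mul_assoc]; exact mul_mem hx' hy'
            · right; rw [mul_assoc, hIab y hy s hs, ← mul_assoc]; exact mul_mem hx' hy'
            · left
              have : x * y = x * s * (y * s) := by
                rw [hIab y hy s hs, mul_assoc, ← mul_assoc s s y, hIsq s hs, one_mul]
              rw [this]; exact mul_mem hx' hy'
          inv_mem' := by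
            rintro x ⟨hx, hx'⟩
            rw [inv_eq_of_mul_eq_one_right (hIsq x hx)]
            exact ⟨hx, hx'⟩ }
      have hHK : H < K := SetLike.lt_iff_le_and_exists.2 ⟨fun x hx => ⟨hHI hx, Or.inl hx⟩, s,
        (show s ∈ I ∧ (s ∈ H ∨ s * s ∈ H) from ⟨hs, Or.inr (by rw [hIsq s hs]; exact one_mem _)⟩), hsH⟩
      have hK := hmax K ⟨hH0.trans hHK.le, fun x hx => hx.1, fun hx => ?_⟩
      · exact hHK.ne (Subgroup.eq_of_le_of_card_ge hHK.le hK)
      · rcases hx.2 with h | h
        · exact hHT h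
        · exact hsT (by rwa [hIab s hs T₀ hT₀])
    have := (Nat.le_of_dvd (by norm_num) hd)
    interval_cases hc : Nat.card H <;> simp_all
  have hHB : ∀ a ∈ H, a ≠ 1 → ∃ g : P, ∀ x : P, (a x = x ↔ x ∈ Subgroup.zpowers g) := by
    intro a ha ha1
    by_contra hb
    obtain ⟨h1, h2⟩ := hTB ⟨a, hHI ha, ha1, hb⟩
    refine hHT ?_
    have := mul_mem (hH0 (hprod T₀ hT₀ a (hHI ha) h1 ha1 h2 hb)) (inv_mem ha)
    rwa [mul_inv_cancel_right] at this
  -- signs on a fixed cyclic subgroup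
  have hsign : ∀ a ∈ I, ∀ g : P, (∀ x : P, (a x = x ↔ x ∈ Subgroup.zpowers g)) →
      ∀ t ∈ I, t g = g ∨ t g = g⁻¹ := by
    intro a ha g hg t ht
    refine sign_of_fixed hp2 hP (hIsq t ht) ((hg _).1 ?_)
    rw [← MulAut.mul_apply, hIab a ha t ht, MulAut.mul_apply, (hg g).2 (Subgroup.mem_zpowers g)]
  obtain ⟨e⟩ : Nonempty (Fin 3 ≃ {a : H // a ≠ 1}) := by
    refine Finite.card_eq.1 ?_
    haveI := Fintype.ofFinite H
    rw [Nat.card_eq_fintype_card, Nat.card_eq_fintype_card, Fintype.card_fin,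
      Fintype.card_subtype_compl, Fintype.card_subtype_eq, ← Nat.card_eq_fintype_card, hH4]
  set h : Fin 3 → MulAut P := fun i => ((e i).1 : MulAut P) with hh
  have hhH : ∀ i, h i ∈ H := fun i => (e i).1.2
  have hhI : ∀ i, h i ∈ I := fun i => hHI (hhH i)
  have hh1 : ∀ i, h i ≠ 1 := fun i hc => (e i).2 (Subtype.ext hc)
  have hex : ∀ a ∈ H, a ≠ 1 → ∃ i, h i = a := fun a ha ha1 =>
    ⟨e.symm ⟨⟨a, ha⟩, fun hc => ha1 (congrArg Subtype.val hc)⟩, by simp [hh]⟩
  choose g hg using fun i => hHB (h i) (hhH i) (hh1 i)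
  have hgsign : ∀ i, ∀ t ∈ I, t (g i) = g i ∨ t (g i) = (g i)⁻¹ := fun i =>
    hsign (h i) (hhI i) (g i) (hg i)
  have hgen : Subgroup.closure (Set.range g) = ⊤ := by
    have hnc : ¬ IsCyclic H := by
      intro hc
      obtain ⟨x, hx⟩ := hc.exists_generator
      have h4 : orderOf x = 4 := by rw [orderOf_eq_card_of_forall_mem_zpowers hx, hH4]
      have h2 : x * x = 1 := Subtype.ext (hIsq _ (hHI x.2))
      have := orderOf_le_of_pow_eq_one two_pos (by rw [pow_two]; exact h2 : x ^ 2 = 1)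
      omega
    haveI : IsMulCommutative H :=
      ⟨⟨fun a b => Subtype.ext (hIab _ (hHI a.2) _ (hHI b.2))⟩⟩
    have hcop : (Nat.card H).Coprime (Nat.card P) := by
      obtain ⟨n, hn⟩ := IsPGroup.iff_card.1 hP
      rw [hH4, hn]
      exact Nat.Coprime.pow_right _ (Nat.Coprime.pow_left 2
        ((Nat.coprime_primes Nat.prime_two hp).2 (Ne.symm hp2)))
    rw [eq_top_iff]
    intro x _
    refine (Subgroup.closure_le _).2 ?_ (CoprimeAction.mem_closure_fixed H.subtype hnc hcop x)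
    rintro y ⟨a, ha1, hay⟩
    obtain ⟨i, hi⟩ := hex (a : MulAut P) a.2 (fun hc => ha1 (Subtype.ext hc))
    obtain ⟨n, hn⟩ := (hg i y).1 (by rw [hi]; exact hay)
    rw [← hn]
    exact zpow_mem (Subgroup.subset_closure (Set.mem_range_self i)) n
  have hext : ∀ t t' : MulAut P, (∀ i, t (g i) = t' (g i)) → t = t' := by
    intro t t' hh'
    have : t.toMonoidHom = t'.toMonoidHom := by
      refine MonoidHom.eq_of_eqOn_dense hgen ?_
      rintro _ ⟨i, rfl⟩
      exact hh' i
    exact MulEquiv.ext fun x => DFunLike.congr_fun this x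
  let ψ : I → (Fin 3 → Bool) := fun t i => decide ((t : MulAut P) (g i) = g i)
  have hψi : Function.Injective ψ := by
    intro t t' htt
    refine Subtype.ext (hext _ _ fun i => ?_)
    have hi := congrFun htt i
    simp only [ψ, decide_eq_decide] at hi
    by_cases hc : (t : MulAut P) (g i) = g i
    · rw [hc, hi.1 hc]
    · rw [(hgsign i _ t.2).resolve_left hc, (hgsign i _ t'.2).resolve_left (fun h' => hc (hi.2 h'))]
  have hψ : Function.Bijective ψ :=
    (Nat.bijective_iff_injective_and_card ψ).2 ⟨hψi, by rw [hI8]; simp⟩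
  have hpat : ∀ f : Fin 3 → Bool, ∃ t ∈ I, ∀ i, (f i = true → t (g i) = g i) ∧
      (f i = false → t (g i) = (g i)⁻¹ ∧ t (g i) ≠ g i) := by
    intro f
    obtain ⟨t, ht⟩ := hψ.2 f
    refine ⟨t, t.2, fun i => ⟨fun hf => ?_, fun hf => ?_⟩⟩
    · rw [← ht] at hf; simpa [ψ] using hf
    · rw [← ht] at hf
      have : (t : MulAut P) (g i) ≠ g i := by simpa [ψ] using hf
      exact ⟨(hgsign i _ t.2).resolve_left this, this⟩
  choose u hu using fun j : Fin 3 => hpat fun i => decide (i ≠ j)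
  have huI : ∀ j, u j ∈ I := fun j => (hu j).1
  have hufix : ∀ j i, i ≠ j → u j (g i) = g i := fun j i hij => ((hu j).2 i).1 (by simpa using hij)
  have hinv' : ∀ j, u j (g j) = (g j)⁻¹ ∧ u j (g j) ≠ g j := fun j => ((hu j).2 j).2 (by simp)
  have huinv : ∀ j, u j (g j) = (g j)⁻¹ := fun j => (hinv' j).1
  have hune : ∀ j, u j (g j) ≠ g j := fun j => (hinv' j).2
  have hu1 : ∀ j, u j ≠ 1 := fun j hc => hune j (by rw [hc]; rfl)
  have huinj : Function.Injective u := fun j k hjk => by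
    by_contra hne
    exact hune j (by rw [hjk]; exact hufix k j hne)
  -- `h i` fixes `g i` and inverts the others
  have hhfix : ∀ i, h i (g i) = g i := fun i => (hg i _).2 (Subgroup.mem_zpowers _)
  have hhne : ∀ i j, j ≠ i → h i (g j) ≠ g j := by
    intro i j hji hc
    obtain ⟨n, hn⟩ := (hg i _).1 hc
    refine hune j ?_
    simp only at hn
    rw [← hn, map_zpow, hufix j i hji.symm]
  have hhinv : ∀ i j, j ≠ i → h i (g j) = (g j)⁻¹ := fun i j hji =>
    (hgsign j _ (hhI i)).resolve_left (hhne i j hji)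
  -- commutativity
  have hcomm : ∀ j k, g j * g k = g k * g j := by
    intro j k
    by_cases hjk : j = k
    · rw [hjk]
    obtain ⟨i, hij, hik⟩ : ∃ i : Fin 3, i ≠ j ∧ i ≠ k := by
      have : ∀ j k : Fin 3, ∃ i : Fin 3, i ≠ j ∧ i ≠ k := by decide
      exact this j k
    let R : Subgroup P := Subgroup.closure {g j, g k}
    have hjR : g j ∈ R := Subgroup.subset_closure (Or.inl rfl)
    have hkR : g k ∈ R := Subgroup.subset_closure (Or.inr rfl)
    have hR : ∀ r : R, (h i) (r : P) ∈ R := by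
      intro r
      have : R ≤ R.comap (h i).toMonoidHom := by
        refine (Subgroup.closure_le _).2 ?_
        rintro x (rfl | rfl)
        · show h i (g j) ∈ R
          rw [hhinv i j hij.symm]; exact inv_mem hjR
        · show h i (g k) ∈ R
          rw [hhinv i k hik.symm]; exact inv_mem hkR
      exact this r.2
    let φ : R →* R := ((h i).toMonoidHom.comp R.subtype).codRestrict R hR
    have hfpf : MonoidHom.FixedPointFree φ := by
      intro r hr
      have hr' : h i (r : P) = r := congrArg Subtype.val hr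
      obtain ⟨n, hn⟩ := (hg i _).1 hr'
      simp only at hn
      have hfx : u i (r : P) = r := by
        have : R ≤ (u i).toMonoidHom.eqLocus (MonoidHom.id P) := by
          refine (Subgroup.closure_le _).2 ?_
          rintro x (rfl | rfl)
          · exact hufix i j hij.symm
          · exact hufix i k hik.symm
        exact this r.2
      have hiv : u i (r : P) = (r : P)⁻¹ := by
        rw [← hn, map_zpow, huinv, inv_zpow]
      refine Subtype.ext (eq_one_of_sq hp2 hP ?_)
      nth_rw 1 [← hfx]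
      rw [hiv, inv_mul_cancel]
    have hinvol : Function.Involutive φ := fun r => Subtype.ext (by
      show h i (h i (r : P)) = r
      rw [← MulAut.mul_apply, hIsq _ (hhI i)]; rfl)
    exact congrArg Subtype.val (hfpf.commute_all_of_involutive hinvol ⟨g j, hjR⟩ ⟨g k, hkR⟩).eq
  have hab : ∀ x y : P, x * y = y * x := by
    have := Subgroup.isMulCommutative_closure (k := Set.range g) (by
      rintro _ ⟨j, rfl⟩ _ ⟨k, rfl⟩; exact hcomm j k)
    intro x y
    have hx : x ∈ Subgroup.closure (Set.range g) := hgen ▸ Subgroup.mem_top x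
    have hy : y ∈ Subgroup.closure (Set.range g) := hgen ▸ Subgroup.mem_top y
    exact congrArg Subtype.val (this.is_comm.comm ⟨x, hx⟩ ⟨y, hy⟩)
  -- which elements are broad
  have hbroad : ∀ t ∈ I, ∀ j k, j ≠ k → t (g j) = g j → t (g k) = g k → Broad t := by
    intro t ht j k hjk hj hk hb
    obtain ⟨c, hc⟩ := hb
    obtain ⟨m, hm⟩ := (hc _).1 hj
    obtain ⟨n, hn⟩ := (hc _).1 hk
    simp only at hm hn
    rcases hsign t ht c hc (u j) (huI j) with hs | hs
    · exact hune j (by rw [← hm, map_zpow, hs])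
    · have h1 : u j (g k) = (g k)⁻¹ := by rw [← hn, map_zpow, hs, inv_zpow]
      rw [hufix j k hjk.symm] at h1
      have hg1 : g k = 1 := eq_one_of_sq hp2 hP (by nth_rw 1 [h1]; exact inv_mul_cancel _)
      exact hune k (by rw [hg1, map_one])
  have hub : ∀ i, Broad (u i) := by
    intro i
    obtain ⟨j, k, hjk, hji, hki⟩ : ∃ j k : Fin 3, j ≠ k ∧ j ≠ i ∧ k ≠ i := by
      have : ∀ i : Fin 3, ∃ j k : Fin 3, j ≠ k ∧ j ≠ i ∧ k ≠ i := by decide
      exact this i
    exact hbroad _ (huI i) j k hjk (hufix i j hji) (hufix i k hki)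
  have hcases : ∀ t ∈ I, t = 1 ∨ (∃ i, t = u i) ∨ (∃ i, t = h i) ∨ ∀ x, t x = x⁻¹ := by
    intro t ht
    have key : ∀ f : Fin 3 → Bool, (∀ i, f i = true) ∨ (∃ j, ∀ i, f i = decide (i ≠ j)) ∨
        (∃ j, ∀ i, f i = decide (i = j)) ∨ ∀ i, f i = false := by decide
    rcases key (ψ ⟨t, ht⟩) with hf | ⟨j, hf⟩ | ⟨j, hf⟩ | hf
    · left
      exact hext t 1 fun i => by have := hf i; simpa [ψ] using this
    · refine Or.inr (Or.inl ⟨j, congrArg Subtype.val (hψi (a₁ := ⟨t, ht⟩) (a₂ := ⟨u j, huI j⟩) ?_)⟩)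
      funext i
      rw [hf i]
      by_cases hij : i = j
      · subst hij; simp [ψ, hune i]
      · simp [ψ, hij, hufix j i hij]
    · refine Or.inr (Or.inr (Or.inl ⟨j, congrArg Subtype.val
        (hψi (a₁ := ⟨t, ht⟩) (a₂ := ⟨h j, hhI j⟩) ?_)⟩))
      funext i
      rw [hf i]
      by_cases hij : i = j
      · subst hij; simp [ψ, hhfix i]
      · simp [ψ, hij, hhne j i hij]
    · refine Or.inr (Or.inr (Or.inr fun x => ?_))
      let ι : P →* P :=
        { toFun := fun x => x⁻¹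
          map_one' := inv_one
          map_mul' := fun a b => by rw [mul_inv_rev]; exact hab _ _ }
      have : t.toMonoidHom = ι := by
        refine MonoidHom.eq_of_eqOn_dense hgen ?_
        rintro _ ⟨i, rfl⟩
        exact (hgsign i t ht).resolve_left (by have := hf i; simpa [ψ] using this)
      exact DFunLike.congr_fun this x
  have hprodh : ∀ i j k, j ≠ i → k ≠ i → j ≠ k → h i = u j * u k := by
    intro i j k hji hki hjk
    refine hext _ _ fun l => ?_
    have hall : ∀ i j k l : Fin 3, j ≠ i → k ≠ i → j ≠ k → l = i ∨ l = j ∨ l = k := by decide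
    rw [MulAut.mul_apply]
    rcases hall i j k l hji hki hjk with rfl | rfl | rfl
    · rw [hufix k _ hki.symm, hufix j _ hji.symm, hhfix]
    · rw [hufix k _ hjk, huinv, hhinv i _ hji]
    · rw [huinv, map_inv, hufix j _ hjk.symm, hhinv i _ hki]
  have hHI0 : H ≤ I₀ := by
    intro a ha
    by_cases ha1 : a = 1
    · rw [ha1]; exact one_mem _
    obtain ⟨i, rfl⟩ := hex a ha ha1
    obtain ⟨j, k, hjk, hji, hki⟩ : ∃ j k : Fin 3, j ≠ k ∧ j ≠ i ∧ k ≠ i := by
      have : ∀ i : Fin 3, ∃ j k : Fin 3, j ≠ k ∧ j ≠ i ∧ k ≠ i := by decide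
      exact this i
    rw [hprodh i j k hji hki hjk]
    exact hprod _ (huI j) _ (huI k) (hu1 j) (hu1 k) (hub j) (hub k)
  have hset : ∀ t, (t ∈ I ∧ t ≠ 1 ∧ Broad t) ↔ ∃ i, t = u i := by
    intro t
    refine ⟨fun ⟨ht, ht1, htb⟩ => ?_, fun ⟨i, hi⟩ => hi ▸ ⟨huI i, hu1 i, hub i⟩⟩
    rcases hcases t ht with h' | h' | ⟨i, h'⟩ | h'
    · exact absurd h' ht1
    · exact h'
    · exact absurd htb (hdisj t (h' ▸ hHI0 (hhH i)) ht1)
    · refine absurd ⟨1, fun x => ?_⟩ htb
      rw [h', Subgroup.zpowers_one_eq_bot, Subgroup.mem_bot]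
      exact ⟨fun hx => eq_one_of_sq hp2 hP (by nth_rw 1 [← hx]; exact inv_mul_cancel x),
        fun hx => by rw [hx, inv_one]⟩
  have hclI : Subgroup.closure {T : MulAut P | T ∈ I ∧ T ≠ 1 ∧ Broad T} = I := by
    refine le_antisymm ((Subgroup.closure_le _).2 fun t ht => ht.1) fun t ht => ?_
    have hmem : ∀ i, u i ∈ Subgroup.closure {T : MulAut P | T ∈ I ∧ T ≠ 1 ∧ Broad T} := fun i =>
      Subgroup.subset_closure ⟨huI i, hu1 i, hub i⟩
    rcases hcases t ht with h' | ⟨i, h'⟩ | ⟨i, h'⟩ | h'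
    · rw [h']; exact one_mem _
    · rw [h']; exact hmem i
    · obtain ⟨j, k, hjk, hji, hki⟩ : ∃ j k : Fin 3, j ≠ k ∧ j ≠ i ∧ k ≠ i := by
        have : ∀ i : Fin 3, ∃ j k : Fin 3, j ≠ k ∧ j ≠ i ∧ k ≠ i := by decide
        exact this i
      rw [h', hprodh i j k hji hki hjk]
      exact mul_mem (hmem j) (hmem k)
    · have he : t = u 0 * (u 1 * u 2) := by
        refine hext _ _ fun l => ?_
        rw [h', MulAut.mul_apply, MulAut.mul_apply]
        fin_cases l <;>
          simp [hufix 1 0 (by decide), hufix 2 0 (by decide), hufix 0 1 (by decide),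
            hufix 2 1 (by decide), hufix 0 2 (by decide), hufix 1 2 (by decide), huinv 0, huinv 1,
            huinv 2]
      rw [he]; exact mul_mem (hmem 0) (mul_mem (hmem 1) (hmem 2))
  refine ⟨⟨⟨hab⟩⟩, ⟨g 0, g 1, g 2, ?_⟩, ?_, ?_, hclI, ?_⟩
  · rw [eq_top_iff, ← hgen]
    refine (Subgroup.closure_le _).2 ?_
    rintro _ ⟨i, rfl⟩
    fin_cases i <;> exact Subgroup.subset_closure (by simp)
  · rintro ⟨a, b, hab2⟩
    letI : CommGroup P := { (inferInstance : Group P) with mul_comm := hab }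
    let f : P →* P := powMonoidHom p
    have hup : Nat.card (P ⧸ f.range) ≤ p ^ 2 := by
      have hpw : ∀ x : P, (QuotientGroup.mk' f.range x) ^ p = 1 := fun x => by
        rw [← map_pow]
        exact (QuotientGroup.eq_one_iff _).2 ⟨x, rfl⟩
      let K : Subgroup (P ⧸ f.range) :=
        { carrier := {c | ∃ i j : ℕ, c = QuotientGroup.mk' f.range a ^ i * QuotientGroup.mk' f.range b ^ j}
          one_mem' := ⟨0, 0, by simp⟩
          mul_mem' := by
            rintro _ _ ⟨i, j, rfl⟩ ⟨i', j', rfl⟩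
            exact ⟨i + i', j + j', by rw [pow_add, pow_add, mul_mul_mul_comm]⟩
          inv_mem' := by
            rintro _ ⟨i, j, rfl⟩
            refine ⟨i * (p - 1), j * (p - 1), inv_eq_of_mul_eq_one_right ?_⟩
            have e1 : ∀ (x : P) (n : ℕ), QuotientGroup.mk' f.range x ^ n *
                QuotientGroup.mk' f.range x ^ (n * (p - 1)) = 1 := fun x n => by
              rw [← pow_add, show n + n * (p - 1) = p * n by
                obtain ⟨q, rfl⟩ := Nat.exists_eq_add_of_le hp.one_lt.le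
                rw [Nat.add_sub_cancel_left]; ring, pow_mul, hpw, one_pow]
            rw [mul_mul_mul_comm, e1, e1, one_mul] }
      have hK : ∀ c, c ∈ K := by
        intro c
        obtain ⟨x, rfl⟩ := QuotientGroup.mk'_surjective f.range c
        have : Subgroup.closure {a, b} ≤ K.comap (QuotientGroup.mk' f.range) := by
          refine (Subgroup.closure_le _).2 ?_
          rintro y (rfl | rfl)
          · exact ⟨1, 0, by simp⟩
          · exact ⟨0, 1, by simp⟩
        exact this (hab2 ▸ Subgroup.mem_top x)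
      calc Nat.card (P ⧸ f.range) ≤ Nat.card (Fin p × Fin p) :=
            Nat.card_le_card_of_surjective
              (fun ij => QuotientGroup.mk' f.range a ^ (ij.1 : ℕ) * QuotientGroup.mk' f.range b ^ (ij.2 : ℕ))
              (fun c => by
                obtain ⟨i, j, rfl⟩ := hK c
                exact ⟨(⟨i % p, Nat.mod_lt _ hp.pos⟩, ⟨j % p, Nat.mod_lt _ hp.pos⟩), by
                  simp only
                  rw [← pow_eq_pow_mod i (hpw a), ← pow_eq_pow_mod j (hpw b)]⟩)
        _ = p ^ 2 := by simp [pow_two]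
    have hkq : Nat.card f.ker = Nat.card (P ⧸ f.range) := by
      have h1 := f.ker.card_mul_index
      rw [Subgroup.index_ker, ← f.range.card_mul_index, Subgroup.index_eq_card] at h1
      have hpos : 0 < Nat.card f.range := Nat.card_pos
      exact Nat.eq_of_mul_eq_mul_left hpos (by linarith)
    have hω : ∀ i, ∃ n : ℕ, orderOf (g i ^ n) = p := by
      intro i
      have hg1 : g i ≠ 1 := fun hc => hune i (by rw [hc, map_one])
      obtain ⟨j, hj⟩ := IsPGroup.iff_orderOf.1 hP (g i)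
      have hj0 : j ≠ 0 := fun hc => hg1 (orderOf_eq_one_iff.1 (by rw [hj, hc, pow_zero]))
      refine ⟨p ^ (j - 1), ?_⟩
      rw [orderOf_pow' _ (pow_ne_zero _ hp.ne_zero), hj,
        Nat.gcd_eq_right (pow_dvd_pow p (Nat.sub_le j 1)), Nat.pow_div (Nat.sub_le j 1) hp.pos,
        show j - (j - 1) = 1 by omega, pow_one]
    choose n hn using hω
    set ω : Fin 3 → P := fun i => g i ^ n i with hωdef
    have hlow : p ^ 3 ≤ Nat.card f.ker := by
      have hker : ∀ c : Fin 3 → Fin p, (∏ i, ω i ^ (c i : ℕ)) ∈ f.ker := by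
        intro c
        rw [MonoidHom.mem_ker, map_prod]
        refine Finset.prod_eq_one fun i _ => ?_
        show (ω i ^ (c i : ℕ)) ^ p = 1
        have hwp : ω i ^ p = 1 := orderOf_dvd_iff_pow_eq_one.1 (by rw [hωdef]; simp only; rw [hn i])
        rw [← pow_mul, mul_comm, pow_mul, hwp, one_pow]
      calc p ^ 3 = Nat.card (Fin 3 → Fin p) := by simp
        _ ≤ Nat.card f.ker := Nat.card_le_card_of_injective (fun c => ⟨_, hker c⟩) (by
          intro c c' hcc
          funext i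
          have e := congrArg (Subtype.val) hcc
          simp only [Fin.prod_univ_three] at e
          have key : ∀ c : Fin 3 → Fin p, (ω 0 ^ (c 0 : ℕ) * ω 1 ^ (c 1 : ℕ) * ω 2 ^ (c 2 : ℕ)) *
              (u i (ω 0 ^ (c 0 : ℕ) * ω 1 ^ (c 1 : ℕ) * ω 2 ^ (c 2 : ℕ)))⁻¹ = (ω i ^ (c i : ℕ)) ^ 2 := by
            intro c
            fin_cases i <;>
              simp [hωdef, hufix 1 0 (by decide), hufix 2 0 (by decide), hufix 0 1 (by decide),
                hufix 2 1 (by decide), hufix 0 2 (by decide), hufix 1 2 (by decide), huinv 0,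
                huinv 1, huinv 2, pow_two, mul_comm, mul_left_comm, mul_assoc]
          have h2 := key c
          rw [e, key c'] at h2
          have h3 : ω i ^ (c i : ℕ) = ω i ^ (c' i : ℕ) := by
            refine mul_inv_eq_one.1 (eq_one_of_sq hp2 hP ?_)
            rw [← pow_two, mul_pow, inv_pow, ← h2, mul_inv_cancel]
          exact Fin.ext (pow_injOn_Iio_orderOf (by simp [hωdef, hn]) (by simp [hωdef, hn]) h3))
    have : p ^ 3 ≤ p ^ 2 := hlow.trans (hkq.trans_le hup)
    exact absurd this (not_le.2 (Nat.pow_lt_pow_right hp.one_lt (by norm_num)))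
  · rw [show Nat.card {T : MulAut P // T ∈ I ∧ T ≠ 1 ∧ Broad T} = Nat.card (Set.range u) from
      Nat.card_congr (Equiv.subtypeEquivRight fun t => by
        rw [hset t]; exact ⟨fun ⟨i, hi⟩ => ⟨i, hi.symm⟩, fun ⟨i, hi⟩ => ⟨i, hi.symm⟩⟩),
      Nat.card_range_of_injective huinj]
    simp
  · ext s
    constructor
    · intro hs
      have hsH : s ∈ H := hH0 hs
      by_cases hs1 : s = 1
      · exact ⟨u 0, u 0, huI 0, huI 0, hu1 0, hu1 0, hub 0, hub 0, by rw [hIsq _ (huI 0), hs1]⟩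
      obtain ⟨i, rfl⟩ := hex s hsH hs1
      obtain ⟨j, k, hjk, hji, hki⟩ : ∃ j k : Fin 3, j ≠ k ∧ j ≠ i ∧ k ≠ i := by
        have : ∀ i : Fin 3, ∃ j k : Fin 3, j ≠ k ∧ j ≠ i ∧ k ≠ i := by decide
        exact this i
      exact ⟨u j, u k, huI j, huI k, hu1 j, hu1 k, hub j, hub k, hprodh i j k hji hki hjk⟩
    · rintro ⟨T, T', hT, hT', hT1, hT1', hTb, hTb', rfl⟩
      exact hprod T hT T' hT' hT1 hT1' hTb hTb'

end CfsgLib.BroadEight
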